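import Mathlib.Algebra.BigOperators.Group.Finset.Basic
import Mathlib.Algebra.Order.BigOperators.Group.Finset
import Mathlib.Algebra.BigOperators.Ring.Finset
import Mathlib.Tactic.NormNum
import Mathlib.Data.Fintype.BigOperators
import Mathlib.Tactic.Linarith
import Mathlib.Tactic.Ring
import Mathlib.Tactic.LinearCombination
import Mathlib.Algebra.Ring.Parity

/-!
# Integral matrices behind a principal block with elementary defect group of order sixteen
-/

set_option autoImplicit false

namespace Cfsg.Agent.H92.S69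

/-- Integers with equal sum and sum of squares are zeros and ones. -/
theorem zero_or_one_of_sums {ι : Type*} (S : Finset ι) (t : ι → ℤ)
    (h : ∑ i ∈ S, t i = ∑ i ∈ S, t i ^ 2) {i : ι} (hi : i ∈ S) : t i = 0 ∨ t i = 1 := by
  have h0 : ∀ x : ℤ, 0 ≤ x ^ 2 - x := fun x => by nlinarith [sq_nonneg (2 * x - 1)]
  have h1 := (Finset.sum_eq_zero_iff_of_nonneg (fun j _ => h0 (t j))).1
    (show ∑ j ∈ S, (t j ^ 2 - t j) = 0 by rw [Finset.sum_sub_distrib, ← h, sub_self]) i hi
  have h2 : t i * (t i - 1) = 0 := by linear_combination h1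
  rcases mul_eq_zero.1 h2 with h3 | h3 <;> omega

/-- Sums and sums of squares of integers have the same parity. -/
theorem two_dvd_sq_sum_sub_sum {ι : Type*} (S : Finset ι) (t : ι → ℤ) :
    (2 : ℤ) ∣ ∑ i ∈ S, t i ^ 2 - ∑ i ∈ S, t i := by
  rw [← Finset.sum_sub_distrib]
  refine Finset.dvd_sum fun i _ => ?_
  rcases Int.even_or_odd (t i) with ⟨c, hc⟩ | ⟨c, hc⟩
  · exact ⟨2 * c * c - c, by rw [hc]; ring⟩
  · exact ⟨2 * c * c + c, by rw [hc]; ring⟩

variable {ι : Type*} [Fintype ι] [DecidableEq ι]

/-- What is known about one of the two matrices. -/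
structure Half (a : ι → ℤ) (U : ι → ι → ℤ) : Prop where
  symm : ∀ i j, U i j = U j i
  sq : ∀ i k, ∑ j, U i j * U j k = 4 * U i k
  mulVec : ∀ i, ∑ j, U i j * a j = 4 * a i
  trace : ∑ i, U i i = 16

namespace Half

variable {a : ι → ℤ} {U : ι → ι → ℤ} (h : Half a U)

include h

theorem row_sq (i : ι) : ∑ j, U i j ^ 2 = 4 * U i i := by
  rw [← h.sq i i]
  exact Finset.sum_congr rfl fun j _ => by rw [pow_two, h.symm j i]

theorem one_le_diag (ha : ∀ i, a i ≠ 0) (i : ι) : 1 ≤ U i i := by
  by_contra hc
  have h1 := h.row_sq i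
  have h2 : ∀ j ∈ (Finset.univ : Finset ι), 0 ≤ U i j ^ 2 := fun j _ => sq_nonneg _
  have h3 := Finset.sum_nonneg h2
  have h4 := (Finset.sum_eq_zero_iff_of_nonneg h2).1 (by omega)
  refine ha i ?_
  have h5 := h.mulVec i
  rw [Finset.sum_eq_zero fun j hj => by
    rw [show U i j = 0 by simpa using h4 j hj, zero_mul]] at h5
  omega

variable {E : Finset ι} (hE : ∀ i ∈ E, a i ^ 2 = 4) (hO : ∀ i, i ∉ E → a i ^ 2 = 1)

include hE hO

/-- An odd row meeting exactly one even row in `+1` has diagonal at least two. -/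
theorem two_le_diag (ha : ∀ i, a i ≠ 0) {e f : ι} (he : e ∈ E) (hf : f ∉ E)
    (hfe : a f * a e * U f e = 2) (hrest : ∀ j ∈ E, j ≠ e → U f j = 0) : 2 ≤ U f f := by
  have h1 := h.one_le_diag ha f
  by_contra hc
  have hff : U f f = 1 := by omega
  set S := (Finset.univ \ E).erase f with hS
  let x : ι → ℤ := fun j => a f * a j * U f j
  have hsplit : ∀ F : ι → ℤ, ∑ j, F j = ∑ j ∈ E, F j + (F f + ∑ j ∈ S, F j) := by
    intro F
    rw [← Finset.sum_sdiff (Finset.subset_univ E), add_comm,
      ← Finset.add_sum_erase _ F (Finset.mem_sdiff.2 ⟨Finset.mem_univ f, hf⟩)]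
  have haf := hO f hf
  have hs : ∑ j, x j = 4 := by
    calc ∑ j, x j = a f * ∑ j, U f j * a j := by
          rw [Finset.mul_sum]; exact Finset.sum_congr rfl fun j _ => by simp only [x]; ring
      _ = 4 := by rw [h.mulVec f]; linear_combination 4 * haf
  have hsE : ∑ j ∈ E, x j = 2 := by
    rw [Finset.sum_eq_single_of_mem e he fun j hj hne => by simp [x, hrest j hj hne]]
    exact hfe
  have hqE : ∑ j ∈ E, U f j ^ 2 = 1 := by
    rw [Finset.sum_eq_single_of_mem e he fun j hj hne => by simp [hrest j hj hne]]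
    have h2 : (a f * a e * U f e) ^ 2 = 4 := by rw [hfe]; norm_num
    rw [mul_pow, mul_pow, haf, hE e he] at h2
    omega
  have hx1 : ∑ j ∈ S, x j = 1 := by
    rw [hsplit x, hsE] at hs
    have : x f = 1 := by simp only [x, hff]; linear_combination haf
    omega
  have hx2 : ∑ j ∈ S, x j ^ 2 = 2 := by
    have h2 := h.row_sq f
    rw [hsplit, hqE, hff] at h2
    rw [Finset.sum_congr rfl (g := fun j => U f j ^ 2) fun j hj => ?_]
    · omega
    · have hj' : j ∉ E := (Finset.mem_sdiff.1 (Finset.mem_of_mem_erase hj)).2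
      simp only [x, mul_pow, haf, hO j hj', one_mul]
  have := two_dvd_sq_sum_sub_sum S x
  rw [hx1, hx2] at this
  omega

/-- An even row has diagonal at least two when there are at most two even rows. -/
theorem two_le_diag_even (ha : ∀ i, a i ≠ 0) (hcard : E.card ≤ 2) {e : ι} (he : e ∈ E) :
    2 ≤ U e e := by
  have h1 := h.one_le_diag ha e
  by_contra hc
  have hee : U e e = 1 := by omega
  have hq := h.row_sq e
  have hm : ∑ j, a e * a j * U e j = 16 := by
    calc ∑ j, a e * a j * U e j = a e * ∑ j, U e j * a j := by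
          rw [Finset.mul_sum]; exact Finset.sum_congr rfl fun j _ => by ring
      _ = 16 := by rw [h.mulVec e]; linear_combination 4 * hE e he
  rw [← Finset.add_sum_erase _ _ (Finset.mem_univ e), hee] at hq
  rw [← Finset.add_sum_erase _ _ (Finset.mem_univ e), hee] at hm
  have hae := hE e he
  -- every further entry is at most twice its square, four times at the other even row
  have hb : ∀ j ∈ Finset.univ.erase e,
      a e * a j * U e j ≤ 2 * U e j ^ 2 + if j ∈ E then 2 * U e j ^ 2 else 0 := by
    intro j _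
    have hsq : 0 ≤ U e j ^ 2 := sq_nonneg _
    have hint : (U e j) = 0 ∨ 1 ≤ U e j ^ 2 := by
      rcases eq_or_ne (U e j) 0 with h' | h'
      · exact Or.inl h'
      · exact Or.inr (by have : 0 < U e j ^ 2 := by positivity
                         omega)
    rcases hint with h' | h'
    · simp [h']
    · have hab : (a e * a j * U e j) ^ 2 = 4 * a j ^ 2 * U e j ^ 2 := by
        rw [mul_pow, mul_pow, hae]
      split_ifs with hj
      · rw [hE j hj] at hab
        nlinarith
      · rw [hO j hj] at hab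
        nlinarith
  have h5 := Finset.sum_le_sum hb
  rw [Finset.sum_add_distrib, ← Finset.mul_sum, Finset.sum_ite, Finset.sum_const_zero,
    add_zero] at h5
  set T := (Finset.univ.erase e).filter (· ∈ E) with hT
  have hTcard : T.card ≤ 1 := by
    have : T ⊆ E.erase e := fun j hj => by
      rw [hT, Finset.mem_filter] at hj
      exact Finset.mem_erase.2 ⟨(Finset.mem_erase.1 hj.1).1, hj.2⟩
    have := Finset.card_le_card this
    rw [Finset.card_erase_of_mem he] at this
    omega
  have hT1 : ∑ j ∈ T, U e j ^ 2 ≤ 1 := by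
    rcases T.eq_empty_or_nonempty with h' | ⟨j, hj⟩
    · simp [h']
    · rw [Finset.eq_singleton_iff_unique_mem.2 ⟨hj, fun k hk =>
        Finset.card_le_one.1 hTcard k hk j hj⟩, Finset.sum_singleton]
      have : U e j ^ 2 ≤ ∑ k ∈ Finset.univ.erase e, U e k ^ 2 :=
        Finset.single_le_sum (f := fun k => U e k ^ 2) (fun k _ => sq_nonneg _)
          (Finset.mem_filter.1 hj).1
      have h3 : U e j < 2 := by nlinarith
      have h4 : -2 < U e j := by nlinarith
      rcases (show U e j = -1 ∨ U e j = 0 ∨ U e j = 1 by omega) with h' | h' | h' <;> simp [h']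
  rw [← Finset.mul_sum] at h5
  rw [mul_one, ← pow_two, hae] at hm
  omega

end Half

variable {a : ι → ℤ} {U V : ι → ι → ℤ} {E : Finset ι}

/-- The odd entries of an even row, normalised. -/
theorem row_facts (h : Half a U) (hE : ∀ i ∈ E, a i ^ 2 = 4) (hO : ∀ i, i ∉ E → a i ^ 2 = 1)
    {e : ι} (he : e ∈ E) (hee : U e e = 2) :
    ∑ j ∈ Finset.univ \ E, a e * a j * U e j =
        8 - ∑ j ∈ E.erase e, a e * a j * U e j ∧
      ∑ j ∈ Finset.univ \ E, (a e * a j * U e j) ^ 2 =
        16 - 4 * ∑ j ∈ E.erase e, U e j ^ 2 := by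
  have hae := hE e he
  have hm : ∑ j, a e * a j * U e j = 16 := by
    calc ∑ j, a e * a j * U e j = a e * ∑ j, U e j * a j := by
          rw [Finset.mul_sum]; exact Finset.sum_congr rfl fun j _ => by ring
      _ = 16 := by rw [h.mulVec e]; linear_combination 4 * hE e he
  have hq := h.row_sq e
  rw [← Finset.sum_sdiff (Finset.subset_univ E), ← Finset.add_sum_erase _ _ he, hee] at hm hq
  constructor
  · linear_combination hm - 2 * hae
  · rw [Finset.sum_congr rfl (g := fun j => 4 * U e j ^ 2) fun j hj => ?_, ← Finset.mul_sum]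
    · linear_combination 4 * hq
    · rw [mul_pow, mul_pow, hae, hO j (Finset.mem_sdiff.1 hj).2, mul_one]

/-- Two even rows: they meet each other in `2`. -/
theorem meet_eq_two (h : Half a U) (hE : ∀ i ∈ E, a i ^ 2 = 4)
    (hO : ∀ i, i ∉ E → a i ^ 2 = 1) (ha : ∀ i, a i ≠ 0) (hcard : Fintype.card ι = 10)
    {e e' : ι} (hne : e ≠ e') (hEe : E = {e, e'}) (he2 : U e e = 2) (he2' : U e' e' = 2) :
    a e * a e' * U e e' = 8 ∧ ∀ j, j ∉ E → U e j = 0 ∧ U e' j = 0 := by
  have he : e ∈ E := by simp [hEe]
  have he' : e' ∈ E := by simp [hEe]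
  have her : E.erase e = {e'} := by
    rw [hEe, Finset.erase_insert (by simpa using hne)]
  have her' : E.erase e' = {e} := by
    rw [hEe, Finset.pair_comm, Finset.erase_insert (by simpa using hne.symm)]
  obtain ⟨h1, h2⟩ := row_facts h hE hO he he2
  obtain ⟨h1', h2'⟩ := row_facts h hE hO he' he2'
  rw [her, Finset.sum_singleton] at h1 h2
  rw [her', Finset.sum_singleton] at h1' h2'
  set u := U e e' with hu
  rw [h.symm e' e, ← hu] at h1' h2'
  -- the normalised entries are even
  have hae : a e = 2 ∨ a e = -2 := sq_eq_sq_iff_eq_or_eq_neg.1 (by rw [hE e he]; norm_num)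
  have hae' : a e' = 2 ∨ a e' = -2 := sq_eq_sq_iff_eq_or_eq_neg.1 (by rw [hE e' he']; norm_num)
  obtain ⟨w, hw, hwsq⟩ : ∃ w, a e * a e' * u = 4 * w ∧ w ^ 2 = u ^ 2 := by
    rcases hae with h' | h' <;> rcases hae' with h'' | h'' <;> rw [h', h''] <;>
      first
        | (refine ⟨u, ?_, rfl⟩; ring1)
        | (refine ⟨-u, ?_, ?_⟩ <;> ring1)
  have hae2 : (2 : ℤ) ∣ a e ∧ (2 : ℤ) ∣ a e' := by
    rcases hae with h' | h' <;> rcases hae' with h'' | h'' <;> rw [h', h''] <;> norm_num
  obtain ⟨⟨s, hs⟩, ⟨s', hs'⟩⟩ := hae2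
  have hss : s ^ 2 = 1 := by
    have := hE e he; rw [hs] at this; linarith [this, mul_pow (2:ℤ) s 2]
  have hss' : s' ^ 2 = 1 := by
    have := hE e' he'; rw [hs'] at this; linarith [this, mul_pow (2:ℤ) s' 2]
  let t : ι → ℤ := fun j => s * a j * U e j
  let t' : ι → ℤ := fun j => s' * a j * U e' j
  have ht1 : ∑ j ∈ Finset.univ \ E, t j = 4 - 2 * w := by
    have : 2 * ∑ j ∈ Finset.univ \ E, t j = 8 - 4 * w := by
      rw [Finset.mul_sum, ← hw, ← h1]
      exact Finset.sum_congr rfl fun j _ => by simp only [t, hs]; ring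
    omega
  have ht2 : ∑ j ∈ Finset.univ \ E, t j ^ 2 = 4 - w ^ 2 := by
    have : 4 * ∑ j ∈ Finset.univ \ E, t j ^ 2 = 16 - 4 * w ^ 2 := by
      rw [Finset.mul_sum, hwsq, ← h2]
      exact Finset.sum_congr rfl fun j _ => by simp only [t, hs]; ring
    omega
  have hw' : a e' * a e * u = 4 * w := by rw [← hw]; ring
  have ht1' : ∑ j ∈ Finset.univ \ E, t' j = 4 - 2 * w := by
    have : 2 * ∑ j ∈ Finset.univ \ E, t' j = 8 - 4 * w := by
      rw [Finset.mul_sum, ← hw', ← h1']
      exact Finset.sum_congr rfl fun j _ => by simp only [t', hs']; ring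
    omega
  have ht2' : ∑ j ∈ Finset.univ \ E, t' j ^ 2 = 4 - w ^ 2 := by
    have : 4 * ∑ j ∈ Finset.univ \ E, t' j ^ 2 = 16 - 4 * w ^ 2 := by
      rw [Finset.mul_sum, hwsq, ← h2']
      exact Finset.sum_congr rfl fun j _ => by simp only [t', hs']; ring
    omega
  have hnn : 0 ≤ ∑ j ∈ Finset.univ \ E, t j ^ 2 := Finset.sum_nonneg fun j _ => sq_nonneg _
  have hwle : -2 ≤ w ∧ w ≤ 2 := ⟨by nlinarith, by nlinarith⟩
  have hpar := two_dvd_sq_sum_sub_sum (Finset.univ \ E) t
  rw [ht1, ht2] at hpar
  rcases (show w = -2 ∨ w = -1 ∨ w = 0 ∨ w = 1 ∨ w = 2 by omega) with h' | h' | h' | h' | h' <;>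
    subst h' <;> norm_num1 at ht1 ht2 ht1' ht2' hpar
  · have hz := (Finset.sum_eq_zero_iff_of_nonneg (fun j _ => sq_nonneg (t j))).1 ht2
    rw [Finset.sum_eq_zero fun j hj => by simpa using hz j hj] at ht1
    omega
  · -- `w = 0`: the two rows are disjoint
    exfalso
    have hu0 : u = 0 := by simpa using hwsq.symm
    have h01 := fun j (hj : j ∈ Finset.univ \ E) =>
      zero_or_one_of_sums _ t (ht1.trans ht2.symm) hj
    have h01' := fun j (hj : j ∈ Finset.univ \ E) =>
      zero_or_one_of_sums _ t' (ht1'.trans ht2'.symm) hj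
    have horth := h.sq e e'
    rw [← hu, hu0, mul_zero, ← Finset.sum_sdiff (Finset.subset_univ E), hEe,
      Finset.sum_pair hne, ← hu, hu0, zero_mul, mul_zero, add_zero, add_zero, ← hEe] at horth
    have horth' : ∑ j ∈ Finset.univ \ E, t j * t' j = 0 := by
      rw [Finset.sum_congr rfl (g := fun j => (s * s') * (U e j * U j e')) fun j hj => ?_,
        ← Finset.mul_sum, horth, mul_zero]
      simp only [t, t', h.symm e' j]
      linear_combination (s * s' * U e j * U j e') * hO j (Finset.mem_sdiff.1 hj).2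
    have hnn' : ∀ j ∈ Finset.univ \ E, 0 ≤ t j * t' j := fun j hj => by
      rcases h01 j hj with a1 | a1 <;> rcases h01' j hj with a2 | a2 <;> simp [a1, a2]
    have hdis := (Finset.sum_eq_zero_iff_of_nonneg hnn').1 horth'
    have hge : ∀ j ∈ Finset.univ \ E, 1 + t j + t' j ≤ U j j := by
      intro j hj
      have hj' := (Finset.mem_sdiff.1 hj).2
      have h1j := h.one_le_diag ha j
      have hd := hdis j hj
      rcases h01 j hj with a1 | a1 <;> rcases h01' j hj with a2 | a2 <;> rw [a1, a2] at hd ⊢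
      · omega
      · have hz : U j e = 0 := by
          have : t j ^ 2 = U e j ^ 2 := by
            simp only [t, mul_pow, hss, hO j hj', one_mul]
          rw [a1] at this
          rw [h.symm j e]
          exact pow_eq_zero_iff two_ne_zero |>.1 (by simpa using this.symm)
        have := h.two_le_diag hE hO ha he' hj' (e := e') (f := j) ?_ fun k hk hk' => ?_
        · omega
        · rw [hs', h.symm j e']
          simp only [t'] at a2
          linear_combination 2 * a2
        · rw [hEe, Finset.mem_insert, Finset.mem_singleton] at hk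
          rcases hk with rfl | rfl
          · exact hz
          · exact absurd rfl hk'
      · have hz : U j e' = 0 := by
          have : t' j ^ 2 = U e' j ^ 2 := by
            simp only [t', mul_pow, hss', hO j hj', one_mul]
          rw [a2] at this
          rw [h.symm j e']
          exact pow_eq_zero_iff two_ne_zero |>.1 (by simpa using this.symm)
        have := h.two_le_diag hE hO ha he hj' (e := e) (f := j) ?_ fun k hk hk' => ?_
        · omega
        · rw [hs, h.symm j e]
          simp only [t] at a1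
          linear_combination 2 * a1
        · rw [hEe, Finset.mem_insert, Finset.mem_singleton] at hk
          rcases hk with rfl | rfl
          · exact absurd rfl hk'
          · exact hz
      · omega
    have htr := h.trace
    rw [← Finset.sum_sdiff (Finset.subset_univ E), hEe, Finset.sum_pair hne, he2, he2', ← hEe]
      at htr
    have hsum := Finset.sum_le_sum hge
    rw [Finset.sum_add_distrib, Finset.sum_add_distrib, ht1, ht1', Finset.sum_const,
      Finset.card_sdiff_of_subset (Finset.subset_univ E), Finset.card_univ, hcard, hEe,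
      Finset.card_pair hne, ← hEe] at hsum
    simp only [nsmul_eq_mul, mul_one] at hsum
    omega
  · refine ⟨by rw [hw]; norm_num, fun j hj => ?_⟩
    have hj1 : j ∈ Finset.univ \ E := Finset.mem_sdiff.2 ⟨Finset.mem_univ j, hj⟩
    constructor
    · have := (Finset.sum_eq_zero_iff_of_nonneg (fun k _ => sq_nonneg (t k))).1 ht2 j hj1
      simp only [t, mul_pow, hss, hO j hj, one_mul] at this
      exact pow_eq_zero_iff two_ne_zero |>.1 this
    · have := (Finset.sum_eq_zero_iff_of_nonneg (fun k _ => sq_nonneg (t' k))).1 ht2' j hj1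
      simp only [t', mul_pow, hss', hO j hj, one_mul] at this
      exact pow_eq_zero_iff two_ne_zero |>.1 this

/-- One even row is impossible. -/
theorem no_single (h : Half a U) (hE : ∀ i ∈ E, a i ^ 2 = 4)
    (hO : ∀ i, i ∉ E → a i ^ 2 = 1) (ha : ∀ i, a i ≠ 0) (hcard : Fintype.card ι = 13)
    {e : ι} (hEe : E = {e}) (hee : U e e = 2) : False := by
  have he : e ∈ E := by simp [hEe]
  obtain ⟨h1, h2⟩ := row_facts h hE hO he hee
  have her : E.erase e = ∅ := by simp [hEe]
  rw [her, Finset.sum_empty, sub_zero] at h1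
  rw [her, Finset.sum_empty, mul_zero, sub_zero] at h2
  obtain ⟨s, hs⟩ : (2 : ℤ) ∣ a e := by
    rcases sq_eq_sq_iff_eq_or_eq_neg.1 (show a e ^ 2 = 2 ^ 2 by rw [hE e he]; norm_num) with
      h' | h' <;> rw [h'] <;> norm_num
  let t : ι → ℤ := fun j => s * a j * U e j
  have ht1 : ∑ j ∈ Finset.univ \ E, t j = 4 := by
    have : 2 * ∑ j ∈ Finset.univ \ E, t j = 8 := by
      rw [Finset.mul_sum, ← h1]
      exact Finset.sum_congr rfl fun j _ => by simp only [t, hs]; ring
    omega
  have ht2 : ∑ j ∈ Finset.univ \ E, t j ^ 2 = 4 := by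
    have : 4 * ∑ j ∈ Finset.univ \ E, t j ^ 2 = 16 := by
      rw [Finset.mul_sum, ← h2]
      exact Finset.sum_congr rfl fun j _ => by simp only [t, hs]; ring
    omega
  have hge : ∀ j ∈ Finset.univ \ E, 1 + t j ≤ U j j := by
    intro j hj
    have hj' := (Finset.mem_sdiff.1 hj).2
    have h1j := h.one_le_diag ha j
    rcases zero_or_one_of_sums _ t (ht1.trans ht2.symm) hj with a1 | a1 <;> rw [a1]
    · omega
    · have := h.two_le_diag hE hO ha he hj' (e := e) (f := j) ?_ fun k hk hk' => ?_
      · omega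
      · rw [hs, h.symm j e]
        simp only [t] at a1
        linear_combination 2 * a1
      · rw [hEe, Finset.mem_singleton] at hk
        exact absurd hk hk'
  have htr := h.trace
  rw [← Finset.sum_sdiff (Finset.subset_univ E), hEe, Finset.sum_singleton, hee, ← hEe] at htr
  have hsum := Finset.sum_le_sum hge
  rw [Finset.sum_add_distrib, ht1, Finset.sum_const, Finset.card_sdiff_of_subset
    (Finset.subset_univ E), Finset.card_univ, hcard, hEe, Finset.card_singleton, ← hEe] at hsum
  simp only [nsmul_eq_mul, mul_one] at hsum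
  omega

/-- **Sixteen rows, or at most eight.** -/
theorem card_eq_sixteen_or_le_eight (ha : ∀ i, a i ≠ 0)
    (hsum : ∑ i, a i ^ 2 = 16) (hU : Half a U) (hV : Half a V)
    (hUV : ∀ i k, ∑ j, U i j * V j k = a i * a k)
    (hlt : ∀ i, 4 * (U i i + V i i) < 16 + a i ^ 2) :
    Fintype.card ι = 16 ∨ Fintype.card ι ≤ 8 := by
  have hpos : ∀ i, 1 ≤ a i ^ 2 := fun i => by
    have : 0 < a i ^ 2 := by have := ha i; positivity
    omega
  by_cases hbig : ∃ i, 9 ≤ a i ^ 2
  · right
    obtain ⟨i, hi⟩ := hbig
    rw [← Finset.add_sum_erase _ _ (Finset.mem_univ i)] at hsum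
    have h1 := Finset.sum_le_sum (s := Finset.univ.erase i) fun j _ => hpos j
    rw [Finset.sum_const, Finset.card_erase_of_mem (Finset.mem_univ i), Finset.card_univ] at h1
    simp only [nsmul_eq_mul, mul_one] at h1
    omega
  simp only [not_exists, not_le] at hbig
  set E := Finset.univ.filter fun i => a i ^ 2 = 4 with hEdef
  have hE : ∀ i ∈ E, a i ^ 2 = 4 := fun i hi => (Finset.mem_filter.1 hi).2
  have hO : ∀ i, i ∉ E → a i ^ 2 = 1 := fun i hi => by
    have h4 : a i ^ 2 ≠ 4 := fun h => hi (Finset.mem_filter.2 ⟨Finset.mem_univ i, h⟩)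
    have h3 : -3 < a i ∧ a i < 3 := ⟨by nlinarith [hbig i], by nlinarith [hbig i]⟩
    have := ha i
    rcases (show a i = -2 ∨ a i = -1 ∨ a i = 1 ∨ a i = 2 by omega) with h' | h' | h' | h' <;>
      simp [h'] at h4 ⊢
  have hcnt : (Fintype.card ι : ℤ) + 3 * E.card = 16 := by
    rw [← Finset.sum_sdiff (Finset.subset_univ E), Finset.sum_congr rfl hE,
      Finset.sum_congr rfl fun i hi => hO i (Finset.mem_sdiff.1 hi).2, Finset.sum_const,
      Finset.sum_const, Finset.card_sdiff_of_subset (Finset.subset_univ E),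
      Finset.card_univ] at hsum
    have := Finset.card_le_univ E
    simp only [nsmul_eq_mul, mul_one] at hsum
    omega
  rcases (show E.card = 0 ∨ E.card = 1 ∨ E.card = 2 ∨ 3 ≤ E.card by omega) with h | h | h | h
  · left; omega
  · exfalso
    obtain ⟨e, he⟩ := Finset.card_eq_one.1 h
    have hem : e ∈ E := by simp [he]
    have h1 := hU.two_le_diag_even hE hO ha (by omega) hem
    have h2 := hV.two_le_diag_even hE hO ha (by omega) hem
    have h3 := hlt e
    rw [hE e hem] at h3
    exact no_single hU hE hO ha (by omega) he (by omega)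
  · exfalso
    obtain ⟨e, e', hne, he⟩ := Finset.card_eq_two.1 h
    have hem : e ∈ E := by simp [he]
    have hem' : e' ∈ E := by simp [he]
    have h1 := hU.two_le_diag_even hE hO ha (by omega) hem
    have h2 := hV.two_le_diag_even hE hO ha (by omega) hem
    have h1' := hU.two_le_diag_even hE hO ha (by omega) hem'
    have h2' := hV.two_le_diag_even hE hO ha (by omega) hem'
    have h3 := hlt e
    rw [hE e hem] at h3
    have h3' := hlt e'
    rw [hE e' hem'] at h3'
    have hUee : U e e = 2 := by omega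
    have hVee : V e e = 2 := by omega
    obtain ⟨hu, hu0⟩ := meet_eq_two hU hE hO ha (by omega) hne he hUee (by omega)
    obtain ⟨hv, -⟩ := meet_eq_two hV hE hO ha (by omega) hne he hVee (by omega)
    have hUV' := hUV e e'
    rw [← Finset.sum_sdiff (Finset.subset_univ E), Finset.sum_eq_zero fun j hj => by
      rw [(hu0 j (Finset.mem_sdiff.1 hj).2).1, zero_mul], zero_add, he, Finset.sum_pair hne,
      hUee, show V e' e' = 2 by omega] at hUV'
    have h16 : (a e * a e') * (a e * a e') = 16 := by
      linear_combination (a e') ^ 2 * hE e hem + 4 * hE e' hem'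
    rw [← hUV'] at h16
    linarith [show (a e * a e') * (U e e' * 2 + 2 * V e e') = 32 by linear_combination 2 * hu + 2 * hv,
      show (a e * a e') * (2 * V e e' + U e e' * 2) = 16 by
        rw [hUV'] at *; linear_combination h16]
  · right; omega

end Cfsg.Agent.H92.S69
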