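import Mathlib.GroupTheory.PGroup
import Mathlib.GroupTheory.GroupAction.Quotient
import Mathlib.GroupTheory.SpecificGroups.Cyclic
import Mathlib.Data.Finset.Card
import Mathlib.Combinatorics.Enumerative.DoubleCounting
import Mathlib.Tactic.IntervalCases

/-!
# A group of order nine acting faithfully on a group of order sixteen and exponent two
-/

set_option autoImplicit false

namespace Cfsg.Agent.H92.S69

open MulAction

variable {A P : Type*} [Group A] [Group P] [MulDistribMulAction A P]

/-- The subgroup fixed by a subgroup. -/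
def fixSub (K : Subgroup A) : Subgroup P where
  carrier := {v | ∀ k ∈ K, k • v = v}
  one_mem' := fun k _ => smul_one k
  mul_mem' := fun hu hv k hk => by rw [smul_mul', hu k hk, hv k hk]
  inv_mem' := fun hu k hk => by rw [smul_inv', hu k hk]

theorem mem_fixSub {K : Subgroup A} {v : P} : v ∈ fixSub K ↔ ∀ k ∈ K, k • v = v := Iff.rfl

variable [Finite A] [Finite P]

/-- A nontrivial subgroup fixes one or four elements. -/
theorem card_fixSub (hA : Nat.card A = 9) (hP : Nat.card P = 16)
    (hfaith : ∀ a : A, (∀ v : P, a • v = v) → a = 1) {K : Subgroup A} (hK : K ≠ ⊥) :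
    Nat.card (fixSub K : Subgroup P) = 1 ∨ Nat.card (fixSub K : Subgroup P) = 4 := by
  haveI : Fact (Nat.Prime 3) := ⟨Nat.prime_three⟩
  have hK3 : IsPGroup 3 K :=
    (IsPGroup.of_card (show Nat.card A = 3 ^ 2 by rw [hA]; norm_num)).to_subgroup K
  have h := hK3.card_modEq_card_fixedPoints P
  have hfp : Nat.card (fixedPoints K P) = Nat.card (fixSub K : Subgroup P) :=
    Nat.card_congr (Equiv.subtypeEquivRight fun v => by
      rw [mem_fixedPoints, mem_fixSub]; exact ⟨fun h k hk => h ⟨k, hk⟩, fun h k => h k k.2⟩)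
  rw [hfp, hP] at h
  obtain ⟨i, hi4, hi⟩ := (Nat.dvd_prime_pow Nat.prime_two).1
    (show Nat.card (fixSub K : Subgroup P) ∣ 2 ^ 4 from (show (2 : ℕ) ^ 4 = Nat.card P by rw [hP]; norm_num) ▸ Subgroup.card_subgroup_dvd_card _)
  rw [hi] at h ⊢
  interval_cases i
  · exact Or.inl rfl
  · exact absurd h (by decide)
  · exact Or.inr rfl
  · exact absurd h (by decide)
  · exfalso
    refine hK ((Subgroup.eq_bot_iff_forall K).2 fun k hk => hfaith k fun v => ?_)
    have htop : (fixSub K : Subgroup P) = ⊤ :=
      Subgroup.eq_top_of_card_eq _ (by rw [hi, hP]; norm_num)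
    exact mem_fixSub.1 (htop ▸ Subgroup.mem_top v) k hk

theorem card_orbit_mul (hA : Nat.card A = 9) (v : P) :
    Nat.card (orbit A v) * Nat.card (stabilizer A v) = 9 := by
  rw [← hA, Nat.card_congr (orbitEquivQuotientStabilizer A v),
    ← Subgroup.card_eq_card_quotient_mul_card_subgroup]

theorem comm_of_nine (hA : Nat.card A = 9) (a b : A) : a * b = b * a :=
  haveI : Fact (Nat.Prime 3) := ⟨Nat.prime_three⟩
  IsPGroup.commutative_of_card_eq_prime_sq (p := 3) (by rw [hA]; norm_num) a b

theorem stabilizer_smul_eq (hA : Nat.card A = 9) {v w : P} (hw : w ∈ orbit A v) :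
    stabilizer A w = stabilizer A v := by
  obtain ⟨a, rfl⟩ := hw
  ext k
  show k • a • v = a • v ↔ k • v = v
  rw [← mul_smul, comm_of_nine hA k a, mul_smul]
  exact smul_left_cancel_iff a

/-- The orbits: one regular, two of length three spanning four-groups. -/
theorem exists_orbits (hA : Nat.card A = 9) (hP : Nat.card P = 16)
    (hfaith : ∀ a : A, (∀ v : P, a • v = v) → a = 1) :
    ∃ x y z : P, x ≠ 1 ∧ y ≠ 1 ∧ z ≠ 1 ∧ stabilizer A x = ⊥ ∧
      Nat.card (stabilizer A y) = 3 ∧ Nat.card (stabilizer A z) = 3 ∧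
      y ∉ orbit A x ∧ z ∉ orbit A x ∧ z ∉ orbit A y ∧
      (∀ v : P, v ≠ 1 → v ∈ orbit A x ∨ v ∈ orbit A y ∨ v ∈ orbit A z) ∧
      (∀ v : P, v ∈ (fixSub (stabilizer A y) : Subgroup P) ↔ v = 1 ∨ v ∈ orbit A y) ∧
      (∀ v : P, v ∈ (fixSub (stabilizer A z) : Subgroup P) ↔ v = 1 ∨ v ∈ orbit A z) := by
  classical
  haveI := Fintype.ofFinite A
  haveI := Fintype.ofFinite P
  have hAne : (⊤ : Subgroup A) ≠ ⊥ := fun h => by
    have := congrArg (fun K : Subgroup A => Nat.card K) h
    rw [Subgroup.card_top, hA, Subgroup.card_bot] at this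
    omega
  let F : P → Finset P := fun v => Finset.univ.filter (· ∈ orbit A v)
  have hF : ∀ v, (F v).card * Nat.card (stabilizer A v) = 9 := fun v => by
    have h := card_orbit_mul hA v
    rwa [Nat.card_eq_fintype_card, Fintype.card_subtype] at h
  have hFmem : ∀ v w, w ∈ F v ↔ w ∈ orbit A v := fun v w => by simp [F]
  have hPc : (Finset.univ : Finset P).card = 16 := by
    rw [Finset.card_univ, ← Nat.card_eq_fintype_card, hP]
  have horb : ∀ v w : P, w ∉ orbit A v → Disjoint (F v) (F w) := fun v w h => by
    refine Finset.disjoint_left.2 fun u hu hu' => h ?_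
    rw [hFmem] at hu hu'
    rw [← orbit_eq_iff.2 hu, orbit_eq_iff.2 hu']
    exact mem_orbit_self w
  have hreg : ∀ v, stabilizer A v = ⊥ → (F v).card = 9 := fun v h => by
    have := hF v
    rwa [h, Subgroup.card_bot, mul_one] at this
  -- nobody is fixed by everything
  set W : Subgroup P := fixSub (⊤ : Subgroup A) with hW
  have hW1 : Nat.card W = 1 := by
    refine (card_fixSub hA hP hfaith hAne).resolve_right fun h4 => ?_
    set S : Finset P := Finset.univ.filter (· ∈ W) with hS
    have hS4 : S.card = 4 := by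
      rw [hS, ← Fintype.card_subtype, ← Nat.card_eq_fintype_card]; exact h4
    have hout : ∀ v, v ∉ W → stabilizer A v = ⊥ := by
      intro v hv
      by_contra hne
      rcases card_fixSub hA hP hfaith hne with h | h
      · exact hv (by
          rw [Subgroup.card_eq_one] at h
          have : v ∈ (fixSub (stabilizer A v) : Subgroup P) := fun k hk => hk
          rw [h, Subgroup.mem_bot] at this
          exact this ▸ one_mem _)
      · refine hv ?_
        have hle : W ≤ (fixSub (stabilizer A v) : Subgroup P) :=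
          fun u hu k _ => hu k (Subgroup.mem_top k)
        rw [Subgroup.eq_of_le_of_card_ge hle (le_of_eq (h.trans h4.symm))]
        exact fun k hk => hk
    have hdis : ∀ v, v ∉ W → Disjoint S (F v) := fun v hv => Finset.disjoint_left.2 fun u hu hu' => by
      obtain ⟨a, rfl⟩ := (hFmem v u).1 hu'
      refine hv fun k hk => ?_
      have h1 := (Finset.mem_filter.1 hu).2 k hk
      rwa [← mul_smul, comm_of_nine hA k a, mul_smul, smul_left_cancel_iff] at h1
    obtain ⟨v, hv⟩ : ∃ v, v ∉ W := by
      by_contra h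
      simp only [not_exists, not_not] at h
      have : S = Finset.univ := Finset.filter_true_of_mem fun v _ => h v
      rw [this, hPc] at hS4
      omega
    have hcv := Finset.card_union_of_disjoint (hdis v hv)
    rw [hS4, hreg v (hout v hv)] at hcv
    obtain ⟨w, hw⟩ : ∃ w, w ∉ S ∪ F v := by
      by_contra h
      simp only [not_exists, not_not] at h
      rw [Finset.eq_univ_of_forall h, hPc] at hcv
      omega
    rw [Finset.mem_union, not_or] at hw
    have hwW : w ∉ W := fun h => hw.1 (Finset.mem_filter.2 ⟨Finset.mem_univ w, h⟩)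
    have h3 : Disjoint (S ∪ F v) (F w) := Finset.disjoint_union_left.2
      ⟨hdis w hwW, horb v w (fun h => hw.2 ((hFmem v w).2 h))⟩
    have := Finset.card_le_univ ((S ∪ F v) ∪ F w)
    rw [Finset.card_union_of_disjoint h3, hcv, hreg w (hout w hwW), ← Finset.card_univ, hPc] at this
    omega
  have hst3 : ∀ v : P, v ≠ 1 → stabilizer A v ≠ ⊥ → Nat.card (stabilizer A v) = 3 ∧
      Nat.card (fixSub (stabilizer A v) : Subgroup P) = 4 ∧
      ∀ u : P, u ∈ (fixSub (stabilizer A v) : Subgroup P) ↔ u = 1 ∨ u ∈ orbit A v := by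
    intro v hv hne
    have hd : Nat.card (stabilizer A v) ∣ 3 ^ 2 := by
      rw [show (3 : ℕ) ^ 2 = 9 by norm_num, ← hA]; exact Subgroup.card_subgroup_dvd_card _
    obtain ⟨i, hi2, hi⟩ := (Nat.dvd_prime_pow Nat.prime_three).1 hd
    have hne1 : i ≠ 0 := fun h => hne (Subgroup.card_eq_one.1 (by rw [hi, h, pow_zero]))
    have hne2 : i ≠ 2 := fun h => hv (by
      have htop : stabilizer A v = ⊤ := Subgroup.eq_top_of_card_eq _ (by rw [hi, h, hA]; norm_num)
      have : v ∈ W := fun k _ => (htop ▸ Subgroup.mem_top k : k ∈ stabilizer A v)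
      rwa [Subgroup.card_eq_one.1 hW1, Subgroup.mem_bot] at this)
    have hi1 : i = 1 := by omega
    subst hi1
    rw [pow_one] at hi
    have hvf : v ∈ (fixSub (stabilizer A v) : Subgroup P) := fun k hk => hk
    have h4 := (card_fixSub hA hP hfaith hne).resolve_left fun h => hv (by
      rwa [Subgroup.card_eq_one.1 h, Subgroup.mem_bot] at hvf)
    refine ⟨hi, h4, ?_⟩
    have hsub : insert 1 (F v) ⊆ Finset.univ.filter (· ∈ (fixSub (stabilizer A v) : Subgroup P)) := by
      intro u hu
      refine Finset.mem_filter.2 ⟨Finset.mem_univ u, ?_⟩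
      rcases Finset.mem_insert.1 hu with rfl | hu
      · exact one_mem _
      · intro k hk
        rw [← stabilizer_smul_eq hA ((hFmem v u).1 hu)] at hk
        exact hk
    have h1F : (1 : P) ∉ F v := fun h => by
      obtain ⟨a, ha⟩ := (hFmem v 1).1 h
      exact hv (smul_left_cancel a (ha.trans (smul_one a).symm))
    have hFv : (F v).card = 3 := by
      have := hF v; rw [hi] at this; omega
    have heq := Finset.eq_of_subset_of_card_le hsub (by
      rw [Finset.card_insert_of_notMem h1F, hFv, ← Fintype.card_subtype,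
        ← Nat.card_eq_fintype_card]
      exact h4.le)
    intro u
    have := congrArg (u ∈ ·) heq
    simp only [Finset.mem_insert, Finset.mem_filter, Finset.mem_univ, true_and, hFmem,
      eq_iff_iff] at this
    exact this.symm
  -- a regular orbit: count the fixed pairs
  obtain ⟨x, hx1, hx⟩ : ∃ x : P, x ≠ 1 ∧ stabilizer A x = ⊥ := by
    by_contra h
    simp only [not_exists, not_and] at h
    have hkey : ((Finset.univ : Finset P).erase 1).card * 2 ≤
        ((Finset.univ : Finset A).erase 1).card * 3 := by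
      refine Finset.card_mul_le_card_mul (fun (v : P) (a : A) => a • v = v) (fun v hv => ?_)
        fun a ha => ?_
      · have hv1 := (Finset.mem_erase.1 hv).1
        have h3 := (hst3 v hv1 (h v hv1)).1
        rw [Nat.card_eq_fintype_card, Fintype.card_subtype] at h3
        rw [Finset.bipartiteAbove, Finset.filter_erase, Finset.card_erase_of_mem (by simp)]
        simp only [MulAction.mem_stabilizer_iff] at h3
        omega
      · have ha1 := (Finset.mem_erase.1 ha).1
        have hK : Subgroup.zpowers a ≠ ⊥ := fun e => ha1 (Subgroup.zpowers_eq_bot.1 e)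
        rw [Finset.bipartiteBelow, Finset.filter_erase, Finset.card_erase_of_mem (by simp)]
        have hsub : (Finset.univ.filter fun v : P => a • v = v) ⊆
            Finset.univ.filter (· ∈ (fixSub (Subgroup.zpowers a) : Subgroup P)) := fun v hv => by
          refine Finset.mem_filter.2 ⟨Finset.mem_univ v, fun k hk => ?_⟩
          exact Subgroup.zpowers_le.2 (show a ∈ stabilizer A v from (Finset.mem_filter.1 hv).2) hk
        have h4 : (Finset.univ.filter (· ∈ (fixSub (Subgroup.zpowers a) : Subgroup P))).card ≤ 4 := by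
          rw [← Fintype.card_subtype, ← Nat.card_eq_fintype_card]
          rcases card_fixSub hA hP hfaith hK with e | e <;> exact e.le.trans (by norm_num)
        have := Finset.card_le_card hsub
        omega
    rw [Finset.card_erase_of_mem (Finset.mem_univ _), Finset.card_erase_of_mem (Finset.mem_univ _),
      hPc, Finset.card_univ, ← Nat.card_eq_fintype_card, hA] at hkey
    omega
  have hne1x : (1 : P) ∉ F x := fun h => by
    obtain ⟨a, ha⟩ := (hFmem x 1).1 h
    exact hx1 (smul_left_cancel a (ha.trans (smul_one a).symm))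
  have hFx : (insert 1 (F x)).card = 10 := by
    rw [Finset.card_insert_of_notMem hne1x, hreg x hx]
  -- the six others
  have hout : ∀ v, v ∉ insert 1 (F x) → stabilizer A v ≠ ⊥ := by
    intro v hv hbot
    rw [Finset.mem_insert, not_or] at hv
    have hd : Disjoint (insert 1 (F x)) (F v) := by
      refine Finset.disjoint_insert_left.2 ⟨fun h => ?_, horb x v fun h => hv.2 ((hFmem x v).2 h)⟩
      obtain ⟨a, ha⟩ := (hFmem v 1).1 h
      exact hv.1 (smul_left_cancel a (ha.trans (smul_one a).symm))
    have := Finset.card_le_univ (insert 1 (F x) ∪ F v)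
    rw [Finset.card_union_of_disjoint hd, hFx, hreg v hbot, ← Finset.card_univ, hPc] at this
    omega
  obtain ⟨y, hy⟩ : ∃ y, y ∉ insert 1 (F x) := by
    by_contra h
    simp only [not_exists, not_not] at h
    rw [Finset.eq_univ_of_forall h, hPc] at hFx
    omega
  have hy' := hy
  rw [Finset.mem_insert, not_or] at hy'
  obtain ⟨hsy, hfy, hfixy⟩ := hst3 y hy'.1 (hout y hy)
  have hFy : (F y).card = 3 := by
    have := hF y; rw [hsy] at this; omega
  have hdy : Disjoint (insert 1 (F x)) (F y) :=
    Finset.disjoint_insert_left.2 ⟨fun h => by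
      obtain ⟨a, ha⟩ := (hFmem y 1).1 h
      exact hy'.1 (smul_left_cancel a (ha.trans (smul_one a).symm)),
      horb x y fun h => hy'.2 ((hFmem x y).2 h)⟩
  have h13 := Finset.card_union_of_disjoint hdy
  rw [hFx, hFy] at h13
  obtain ⟨z, hz⟩ : ∃ z, z ∉ insert 1 (F x) ∪ F y := by
    by_contra h
    simp only [not_exists, not_not] at h
    rw [Finset.eq_univ_of_forall h, hPc] at h13
    omega
  have hz' := hz
  rw [Finset.mem_union, Finset.mem_insert, not_or, not_or] at hz'
  obtain ⟨hsz, hfz, hfixz⟩ := hst3 z hz'.1.1 (hout z fun h => hz (Finset.mem_union_left _ h))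
  have hFz : (F z).card = 3 := by
    have := hF z; rw [hsz] at this; omega
  have hdz : Disjoint (insert 1 (F x) ∪ F y) (F z) :=
    Finset.disjoint_union_left.2 ⟨Finset.disjoint_insert_left.2 ⟨fun h => by
      obtain ⟨a, ha⟩ := (hFmem z 1).1 h
      exact hz'.1.1 (smul_left_cancel a (ha.trans (smul_one a).symm)),
      horb x z fun h => hz'.1.2 ((hFmem x z).2 h)⟩, horb y z fun h => hz'.2 ((hFmem y z).2 h)⟩
  have huniv : insert 1 (F x) ∪ F y ∪ F z = Finset.univ := by
    refine Finset.eq_univ_of_card _ ?_
    rw [Finset.card_union_of_disjoint hdz, h13, hFz, ← Finset.card_univ, hPc]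
  refine ⟨x, y, z, hx1, hy'.1, hz'.1.1, hx, hsy, hsz, fun h => hy'.2 ((hFmem x y).2 h),
    fun h => hz'.1.2 ((hFmem x z).2 h), fun h => hz'.2 ((hFmem y z).2 h), fun v hv => ?_,
    hfixy, hfixz⟩
  have := huniv ▸ Finset.mem_univ v
  simp only [Finset.mem_union, Finset.mem_insert, hFmem, hv, false_or, or_assoc] at this
  exact this

end Cfsg.Agent.H92.S69
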